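import Cfsg.Agent.PSL2Rec.CS

/-! Groups with the same conjugacy class sizes as `PSL₂(q)` split over their centre. -/

set_option autoImplicit false

namespace Cfsg.Agent.PSL2Rec

open Subgroup

variable {G : Type*} [Group G]

theorem pow_index_mem_commutator [Finite G] (H : Subgroup G) {z : G} (hz : z ∈ center G)
    (hz' : z ∈ commutator G) (hzH : z ∈ H) : (⟨z, hzH⟩ : H) ^ H.index ∈ commutator H := by
  have h1 := Abelianization.commutator_subset_ker
    (MonoidHom.transfer (Abelianization.of : H →* Abelianization H)) hz'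
  rw [MonoidHom.mem_ker, MonoidHom.transfer_eq_pow _ _ (fun k g _ => by
    rw [mul_assoc, ← mem_center_iff.1 (pow_mem hz k) g, inv_mul_cancel_left])] at h1
  rw [← Abelianization.ker_of]
  exact h1

theorem pow_index_eq_one [Finite G] (H : Subgroup G) (hH : ∀ x ∈ H, ∀ y ∈ H, x * y = y * x) {z : G}
    (hz : z ∈ center G) (hz' : z ∈ commutator G) (hzH : z ∈ H) : z ^ H.index = 1 := by
  have h1 := pow_index_mem_commutator H hz hz' hzH
  have h2 : commutator H = ⊥ := by
    rw [commutator_def, commutator_eq_bot_iff_le_centralizer]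
    exact fun x _ y _ => Subtype.ext (hH _ y.2 _ x.2)
  rw [h2] at h1
  exact congrArg Subtype.val (mem_bot.1 h1)

theorem comm_comap_zpowers (t : G ⧸ center G) :
    ∀ x ∈ (zpowers t).comap (QuotientGroup.mk' (center G)),
      ∀ y ∈ (zpowers t).comap (QuotientGroup.mk' (center G)), x * y = y * x := by
  obtain ⟨t, rfl⟩ := QuotientGroup.mk_surjective t
  have key : ∀ x ∈ (zpowers (t : G ⧸ center G)).comap (QuotientGroup.mk' (center G)),
      ∃ (k : ℤ) (z : G), z ∈ center G ∧ x = t ^ k * z := by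
    rintro x ⟨k, hk⟩
    exact ⟨k, (t ^ k)⁻¹ * x, QuotientGroup.eq.1 hk, by group⟩
  intro x hx y hy
  obtain ⟨k, z, hz, rfl⟩ := key x hx
  obtain ⟨l, w, hw, rfl⟩ := key y hy
  have c1 : ∀ g, Commute g z := mem_center_iff.1 hz
  have c2 : ∀ g, Commute g w := mem_center_iff.1 hw
  exact (((Commute.refl t).zpow_zpow k l).mul_right (c2 _)).mul_left (c1 _).symm

theorem exists_eq_of_mem_commutator {T : Subgroup G} (hT : T.index = 2)
    (hc : ∀ x ∈ T, ∀ y ∈ T, x * y = y * x) {s : G} (hs : s ∉ T) {d : G} (hd : d ∈ commutator G) :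
    ∃ τ ∈ T, d = s * τ * s⁻¹ * τ⁻¹ := by
  have hn := normal_of_index_eq_two hT
  let D : Subgroup G :=
    { carrier := {d | ∃ τ ∈ T, d = s * τ * s⁻¹ * τ⁻¹}
      one_mem' := ⟨1, T.one_mem, by simp⟩
      mul_mem' := by
        rintro _ _ ⟨x, hx, rfl⟩ ⟨y, hy, rfl⟩
        refine ⟨x * y, T.mul_mem hx hy, ?_⟩
        calc s * x * s⁻¹ * x⁻¹ * (s * y * s⁻¹ * y⁻¹) =
            s * x * s⁻¹ * (x⁻¹ * (s * y * s⁻¹ * y⁻¹)) := by group
          _ = _ := by
            rw [hc _ (T.inv_mem hx) _ (T.mul_mem (hn.conj_mem y hy s) (T.inv_mem hy))]; group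
      inv_mem' := by
        rintro _ ⟨x, hx, rfl⟩
        refine ⟨x⁻¹, T.inv_mem hx, ?_⟩
        rw [mul_inv_rev, hc _ (T.inv_mem (T.inv_mem hx)) _ (T.inv_mem (hn.conj_mem x hx s))]
        group }
  have hconj : ∀ g, g ∉ T → ∀ x ∈ T, g * x * g⁻¹ = s * x * s⁻¹ := by
    intro g hg x hx
    have h1 : s⁻¹ * g ∈ T := (mul_mem_iff_of_index_two hT).2 (by simp [hg, hs])
    calc g * x * g⁻¹ = s * ((s⁻¹ * g) * x) * g⁻¹ := by group
      _ = _ := by rw [hc _ h1 _ hx]; group
  have key : ∀ g, ∀ x ∈ T, g * x * g⁻¹ * x⁻¹ ∈ D := by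
    intro g x hx
    by_cases hg : g ∈ T
    · rw [hc g hg x hx]; simp
    · exact ⟨x, hx, by rw [hconj g hg x hx]⟩
  have : commutator G ≤ D := by
    rw [commutator_def, commutator_le]
    intro g _ h _
    rw [commutatorElement_def]
    by_cases hh : h ∈ T
    · exact key g h hh
    by_cases hg : g ∈ T
    · have := D.inv_mem (key h g hg)
      rwa [show (h * g * h⁻¹ * g⁻¹)⁻¹ = g * h * g⁻¹ * h⁻¹ by group] at this
    · have h1 : h * g⁻¹ ∈ T := (mul_mem_iff_of_index_two hT).2 (by simp [hg, hh])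
      have := key g _ h1
      rwa [show g * (h * g⁻¹) * g⁻¹ * (h * g⁻¹)⁻¹ = g * h * g⁻¹ * h⁻¹ by group] at this
  exact this hd

theorem cl_mk_dvd (x : G) : cl (x : G ⧸ center G) ∣ cl x := by
  rw [cl, cl, ← index_comap_of_surjective _ (QuotientGroup.mk'_surjective (center G))]
  apply index_dvd_of_le
  intro y hy
  rw [mem_comap, mem_cen, QuotientGroup.mk'_apply, ← QuotientGroup.mk_mul, ← QuotientGroup.mk_mul,
    mem_cen.1 hy]

namespace CS

variable {q δ e o : ℕ}

theorem pow_eq_one_A [Finite G] (h : CS G q δ e o) {p n : ℕ} [hp : Fact p.Prime] (hq : q = p ^ n)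
    {z : G} (hz : z ∈ center G) (hz' : z ∈ commutator G) : z ^ (δ * e * o) = 1 := by
  have hpq : p ∣ q := hq ▸ dvd_pow_self p (by rintro rfl; simpa [hq] using h.q1)
  obtain ⟨P⟩ : Nonempty (Sylow p (G ⧸ center G)) := inferInstance
  obtain ⟨a, haZ, hap, ha⟩ := h.exists_cen_eq hq P
  have hcl : ∀ y ∈ cen a, y ∉ center G → cl y = δ * e * o := by
    intro y hy hyZ
    refine h.cl_of_dvd hp.out hpq (g := y) ?_
    rw [ha] at hy
    obtain ⟨k, hk⟩ := IsPGroup.iff_orderOf.1 P.isPGroup' ⟨y, hy⟩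
    replace hk : orderOf (y : G ⧸ center G) = p ^ k := (orderOf_coe _).trans hk
    rcases k with _ | k
    · exact absurd ((QuotientGroup.eq_one_iff y).1 (orderOf_eq_one_iff.1 hk)) hyZ
    · rw [hk]; exact dvd_pow_self _ (by omega)
  rw [← hcl a (self_mem_cen a) haZ]
  refine pow_index_eq_one (cen a) (fun x hx y hy => ?_) hz hz' (center_le_cen a hz)
  by_cases hxZ : x ∈ center G
  · exact (mem_center_iff.1 hxZ y).symm
  have hrel : (center G).relIndex (cen x) = q := by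
    have h1 := cl_mul_relIndex x
    have hpos : 0 < cl x := Nat.pos_of_ne_zero index_ne_zero_of_finite
    rw [h.index_center] at h1
    exact Nat.eq_of_mul_eq_mul_right hpos (by rw [h1, hcl x hx hxZ]; ring)
  have hp' : IsPGroup p ((cen x).map (QuotientGroup.mk' (center G))) :=
    IsPGroup.of_card (by rw [card_map_mk, hrel, hq])
  obtain ⟨Q, hQ⟩ := hp'.exists_le_sylow
  have hQP : Q = P := h.sylowTI hq Q P x (fun e => hxZ ((QuotientGroup.eq_one_iff x).1 e))
    (hQ (mem_map_of_mem (QuotientGroup.mk' _) (self_mem_cen x))) (by rw [ha] at hx; exact hx)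
  have h1 : cen x = cen a := Extremal.eq_of_ge (by rw [hcl a (self_mem_cen a) haZ]; exact h.extA)
    (by rw [ha, ← hQP]; exact map_le_iff_le_comap.1 hQ)
  exact (mem_cen.1 (h1 ▸ hy : y ∈ cen x)).symm

theorem pow_eq_one_of_orderOf [Finite G] (h : CS G q δ e o) (t : G ⧸ center G) {n : ℕ}
    (hn : orderOf t * n = δ * q * e * o) {z : G} (hz : z ∈ center G) (hz' : z ∈ commutator G) :
    z ^ n = 1 := by
  have h1 := pow_index_eq_one _ (comm_comap_zpowers t) hz hz' (by
    rw [mem_comap, QuotientGroup.mk'_apply, (QuotientGroup.eq_one_iff z).2 hz]; exact one_mem _)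
  rw [index_comap_of_surjective _ (QuotientGroup.mk'_surjective _)] at h1
  have h2 := (zpowers t).card_mul_index
  rw [Nat.card_zpowers, ← index_eq_card, h.index_center, ← hn] at h2
  rwa [Nat.eq_of_mul_eq_mul_left (orderOf_pos t) h2] at h1

theorem eq_one_of_sq [Finite G] (h : CS G q 2 e o) (t : G ⧸ center G) (ht : orderOf t = e)
    (hodd : ∀ x : G ⧸ center G, ¬ 2 ∣ cl x → x ^ 2 = 1)
    {z : G} (hz : z ∈ center G) (hz' : z ∈ commutator G) (hz2 : z ^ 2 = 1) : z = 1 := by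
  have hqo : ¬ 2 ∣ q * o := fun hd => by
    simpa using Nat.eq_one_of_dvd_coprimes (h.qe.symm.mul_right h.eo) h.δe hd
  have he0 : e ≠ 0 := by have := h.e1; omega
  obtain ⟨a, m, hm, hem⟩ := Nat.exists_eq_two_pow_mul_odd he0
  have hm0 : m ≠ 0 := by rintro rfl; simp at hm
  have ht' : orderOf (t ^ m) = 2 ^ a := by
    rw [orderOf_pow' _ hm0, ht, hem, Nat.gcd_eq_right (dvd_mul_left _ _),
      Nat.mul_div_cancel _ (Nat.pos_of_ne_zero hm0)]
  obtain ⟨S, hS⟩ := (IsPGroup.of_card (G := zpowers (t ^ m))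
    (by rw [Nat.card_zpowers, ht'])).exists_le_sylow
  have hG : Nat.card (G ⧸ center G) = 2 ^ (a + 1) * (m * (q * o)) := by
    rw [← index_eq_card, h.index_center, hem]; ring
  have hSc : Nat.card (S : Subgroup (G ⧸ center G)) = 2 ^ (a + 1) := by
    refine Nat.dvd_antisymm ?_ (S.pow_dvd_card_of_pow_dvd_card ⟨_, hG⟩)
    obtain ⟨k, hk⟩ := S.isPGroup'.exists_card_eq
    have h1 := (S : Subgroup (G ⧸ center G)).card_subgroup_dvd_card
    rw [hG, hk] at h1
    rw [hk]
    refine Nat.Coprime.dvd_of_dvd_mul_right (Nat.Coprime.pow_left _ ?_) h1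
    rw [Nat.coprime_two_left]
    exact hm.mul (Nat.odd_iff.2 (by omega))
  obtain ⟨x₀, hx₀⟩ := h.exD
  obtain ⟨g, hg⟩ := exists_conj_mem_of_not_dvd (K := (cen x₀).map (QuotientGroup.mk' _)) S.isPGroup'
    (by
      rw [index_map_eq _ (QuotientGroup.mk'_surjective _)
        (by rw [QuotientGroup.ker_mk']; exact center_le_cen _), ← cl, hx₀]
      exact hqo)
  obtain ⟨g, rfl⟩ := QuotientGroup.mk_surjective g
  set x := g * x₀ * g⁻¹ with hx
  have hcl : cl x = q * o := by rw [hx, cl_conj, hx₀]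
  set H := (S : Subgroup (G ⧸ center G)).comap (QuotientGroup.mk' (center G)) with hH
  have hHx : H ≤ cen x := by
    intro u hu
    obtain ⟨v, hv, hv'⟩ := hg _ hu
    have h1 : v⁻¹ * (g⁻¹ * u * g) ∈ center G := QuotientGroup.eq.1 hv'
    have h2 := mem_cen.1 (mul_mem hv (center_le_cen x₀ h1))
    rw [mul_inv_cancel_left] at h2
    rw [mem_cen]
    calc u * x = g * (g⁻¹ * u * g * x₀) * g⁻¹ := by rw [hx]; group
      _ = _ := by rw [h2, hx]; group
  have hcenS : ∀ u : G, (∀ v ∈ H, (v : G ⧸ center G) * u = u * v) →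
      (u : G ⧸ center G) ^ 2 = 1 ∧ u ∈ H := by
    intro u hu
    have h1 : (S : Subgroup (G ⧸ center G)) ≤ cen (u : G ⧸ center G) := by
      intro v hv
      obtain ⟨v, rfl⟩ := QuotientGroup.mk_surjective v
      exact mem_cen.2 (hu v hv)
    have h2 := hodd u fun hd => S.not_dvd_index (hd.trans (index_dvd_of_le h1))
    refine ⟨h2, ?_⟩
    have hp : IsPGroup 2 (zpowers (u : G ⧸ center G)) := by
      obtain ⟨i, -, hi⟩ := (Nat.dvd_prime_pow Nat.prime_two (m := 1)).1
        (orderOf_dvd_of_pow_eq_one h2)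
      exact IsPGroup.of_card (by rw [Nat.card_zpowers, hi])
    have : (u : G ⧸ center G) ∈ zpowers (u : G ⧸ center G) ⊓ normalizer S :=
      ⟨mem_zpowers _, centralizer_le_normalizer _ fun v hv => mem_cen.1 (h1 hv)⟩
    rw [hp.inf_normalizer_sylow] at this
    exact this.2
  obtain ⟨hx2, hxH⟩ := hcenS x fun v hv => by
    rw [← QuotientGroup.mk_mul, ← QuotientGroup.mk_mul, mem_cen.1 (hHx hv)]
  have hxZ : (x : G ⧸ center G) ≠ 1 := by
    rw [Ne, QuotientGroup.eq_one_iff, ← cl_eq_one_iff, hcl]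
    exact fun e => nd h.q1 (Nat.coprime_one_right _) (dvd_mul_right _ _) e.dvd
  set T := (zpowers (t ^ m)).comap (QuotientGroup.mk' (center G)) with hT
  have hTH : T ≤ H := comap_mono hS
  have hTi : (T.subgroupOf H).index = 2 := by
    have h1 := relIndex_mul_index hTH
    rw [hT, hH, index_comap_of_surjective _ (QuotientGroup.mk'_surjective _),
      index_comap_of_surjective _ (QuotientGroup.mk'_surjective _), ← hT, ← hH] at h1
    have h2 := (zpowers (t ^ m)).card_mul_index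
    have h3 := (S : Subgroup (G ⧸ center G)).card_mul_index
    rw [Nat.card_zpowers, ht', ← h1, ← h3, hSc, ← mul_assoc,
      mul_left_inj' index_ne_zero_of_finite, pow_succ, mul_right_inj' (by positivity)] at h2
    exact h2
  have hTc := comm_comap_zpowers (t ^ m)
  rw [← hT] at hTc
  obtain ⟨s, hs, hsx⟩ : ∃ s : H, s ∉ T.subgroupOf H ∧ (x ∉ T → (s : G) = x) := by
    by_cases hxT : x ∈ T
    · have : T.subgroupOf H ≠ ⊤ := fun e => by rw [e, index_top] at hTi; omega
      obtain ⟨s, -, hs⟩ := SetLike.exists_of_lt (lt_top_iff_ne_top.2 this)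
      exact ⟨s, hs, fun h => absurd hxT h⟩
    · exact ⟨⟨x, hxH⟩, hxT, fun _ => rfl⟩
  have hzH : z ∈ H := by
    rw [hH, mem_comap, QuotientGroup.mk'_apply, (QuotientGroup.eq_one_iff z).2 hz]; exact one_mem _
  obtain ⟨τ, hτ, hd⟩ := exists_eq_of_mem_commutator hTi
    (fun x hx y hy => Subtype.ext (hTc _ hx _ hy)) hs (pow_index_mem_commutator H hz hz' hzH)
  have hzz : z ^ H.index = z := by
    obtain ⟨k, hk⟩ : Odd H.index := by
      rw [hH, index_comap_of_surjective _ (QuotientGroup.mk'_surjective _), ← Nat.not_even_iff_odd,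
        even_iff_two_dvd]
      exact S.not_dvd_index
    rw [hk, pow_succ, pow_mul, hz2, one_pow, one_mul]
  have hd' : z = s * τ * (s : G)⁻¹ * (τ : G)⁻¹ := hzz.symm.trans (congrArg Subtype.val hd)
  suffices (s : G) * τ = τ * s by rw [hd', this]; group
  by_cases hxT : x ∈ T
  swap
  · rw [hsx hxT]; exact (mem_cen.1 (hHx τ.2)).symm
  have hsτ : ((s : G) : G ⧸ center G) * (τ : G) = (τ : G) * (s : G) := by
    rw [← mul_inv_eq_iff_eq_mul, ← mul_inv_eq_one, ← QuotientGroup.mk_inv, ← QuotientGroup.mk_inv,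
      ← QuotientGroup.mk_mul, ← QuotientGroup.mk_mul, ← QuotientGroup.mk_mul, ← hd',
      QuotientGroup.eq_one_iff]
    exact hz
  obtain ⟨hτ2, -⟩ := hcenS τ fun v hv => by
    by_cases hvT : v ∈ T
    · rw [← QuotientGroup.mk_mul, ← QuotientGroup.mk_mul, hTc v hvT τ hτ]
    · have h1 : s⁻¹ * ⟨v, hv⟩ ∈ T.subgroupOf H :=
        (mul_mem_iff_of_index_two hTi).2 (by simp only [inv_mem_iff, hs, false_iff]; exact hvT)
      have h2 := congrArg (QuotientGroup.mk : G → G ⧸ center G) (hTc _ h1 τ hτ)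
      change ((s : G) : G ⧸ center G)⁻¹ * v * (τ : G) = (τ : G) * (((s : G) : G ⧸ center G)⁻¹ * v) at h2
      calc (v : G ⧸ center G) * (τ : G) = (s : G) * (((s : G) : G ⧸ center G)⁻¹ * v * (τ : G)) := by
            group
        _ = _ := by rw [h2, ← mul_assoc, hsτ]; group
  by_cases hτ1 : ((τ : G) : G ⧸ center G) = 1
  · exact mem_center_iff.1 ((QuotientGroup.eq_one_iff _).1 hτ1) s
  have ha : a ≠ 0 := by
    rintro rfl
    rw [pow_zero, one_mul] at hem
    exact (Nat.not_even_iff_odd.2 hm) (even_iff_two_dvd.2 (hem ▸ h.δe))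
  obtain ⟨a, rfl⟩ := Nat.exists_eq_succ_of_ne_zero ha
  have hinv : ∀ u : G ⧸ center G, u ∈ zpowers (t ^ m) → u ^ 2 = 1 → u ≠ 1 →
      u = (t ^ m) ^ 2 ^ a := fun u hu hu2 hu1 =>
    ((mem_zpowers_two (by rw [← pow_two, ← pow_mul, ← pow_succ, ← ht', pow_orderOf_eq_one])).1
      (LinP.mem_zpowers_omega ht' hu hu2)).resolve_left hu1
  have h1 : x⁻¹ * τ ∈ center G :=
    QuotientGroup.eq.1 ((hinv _ hxT hx2 hxZ).trans (hinv _ hτ hτ2 hτ1).symm)
  have h2 : (τ : G) ∈ cen (s : G) := by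
    have := mul_mem (mem_cen_comm.1 (hHx s.2)) (center_le_cen _ h1)
    rwa [mul_inv_cancel_left] at this
  exact (mem_cen.1 h2).symm

end CS

theorem center_inf_commutator [Finite G] {F : Type*} [Field F] [Fintype F]
    (hq : 3 < Fintype.card F) {δ e o : ℕ} (hS : Shape (Fintype.card F) δ e o)
    (h : CS G (Fintype.card F) δ e o)
    (φ : G ⧸ center G ≃* Matrix.ProjectiveSpecialLinearGroup (Fin 2) F) :
    commutator G ⊓ center G = ⊥ := by
  rw [eq_bot_iff]
  rintro z ⟨hz', hz⟩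
  obtain ⟨p, hp⟩ := CharP.exists F
  obtain ⟨n, hpp, hn⟩ := FiniteField.card F p
  have := Fact.mk hpp
  obtain ⟨⟨t, ht⟩, ⟨u, hu⟩⟩ : (∃ t : G ⧸ center G, orderOf t = e) ∧
      ∃ u : G ⧸ center G, orderOf u = o := by
    obtain ⟨x, hx⟩ := Spec.exists_psl_order (F := F) _ (Or.inl rfl)
    obtain ⟨y, hy⟩ := Spec.exists_psl_order (F := F) _ (Or.inr rfl)
    rw [← φ.symm.orderOf_eq] at hx hy
    rcases hS with ⟨rfl, h2, h4, h5⟩ | ⟨rfl, h2, ⟨h4, h5⟩ | ⟨h4, h5⟩⟩
    · rw [show Nat.gcd 2 _ = 1 by rw [← Nat.Coprime, Nat.coprime_two_left, Nat.odd_iff]; omega]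
        at hx hy
      exact ⟨⟨_, hx.trans (by omega)⟩, ⟨_, hy.trans (by omega)⟩⟩
    · rw [Nat.gcd_eq_left (by omega)] at hx hy
      exact ⟨⟨_, hx.trans (by omega)⟩, ⟨_, hy.trans (by omega)⟩⟩
    · rw [Nat.gcd_eq_left (by omega)] at hx hy
      exact ⟨⟨_, hy.trans (by omega)⟩, ⟨_, hx.trans (by omega)⟩⟩
  have h1 := orderOf_dvd_of_pow_eq_one (h.pow_eq_one_A hn hz hz')
  have h2 := orderOf_dvd_of_pow_eq_one (h.pow_eq_one_of_orderOf t
    (n := δ * (Fintype.card F * o)) (by rw [ht]; ring) hz hz')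
  have h3 := orderOf_dvd_of_pow_eq_one (h.pow_eq_one_of_orderOf u
    (n := δ * (Fintype.card F * e)) (by rw [hu]; ring) hz hz')
  rw [mul_assoc] at h1
  have h4 := Nat.dvd_gcd h1 (Nat.dvd_gcd h2 h3)
  rw [Nat.gcd_mul_left, Nat.gcd_mul_left, Nat.gcd_mul_left, h.eo.symm.gcd_eq_one, mul_one,
    (h.qe.mul_right h.qo).symm.gcd_eq_one, mul_one, orderOf_dvd_iff_pow_eq_one] at h4
  rcases hS with ⟨rfl, -⟩ | ⟨rfl, h5, h6⟩
  · simpa using h4
  · refine h.eq_one_of_sq t ht (fun x hx => ?_) hz hz' h4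
    apply φ.injective
    rw [map_pow, map_one]
    refine sq_eq_one_of_odd_cl (by omega) ?_
    rw [cl, ← index_comap_of_surjective _ (f := φ.toMonoidHom) φ.surjective]
    convert hx using 3
    ext y
    rw [mem_comap, mem_cen, mem_cen]
    change φ y * φ x = φ x * φ y ↔ _
    rw [← map_mul, ← map_mul, φ.injective.eq_iff]

end Cfsg.Agent.PSL2Rec
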